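/-
Nilpotent self-normalizing complements: a conjugacy theorem without solvability.
-/
import Cfsg.Agent.H1.Transfer
import Cfsg.Agent.H2.Coprime

set_option autoImplicit false
set_option linter.unusedSectionVars false

namespace Cfsg.Agent.NF

open Subgroup H1
open scoped commutatorElement

variable {H K : Type*} [Group H] [Group K] [Finite H] [Finite K]

/-- All Sylow subgroups of `X` are normal in `X`. -/
def NS (X : Subgroup H) : Prop :=
  ∀ (p : ℕ) [Fact p.Prime] (P : Subgroup H), IsSylowIn p P X → X ≤ normalizer (P : Set H)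

theorem ns_of_isNilpotent {X : Subgroup H} (hX : Group.IsNilpotent X) : NS X := by
  intro p _ P hP
  have h3 : (hP.toSylow : Subgroup X).Normal := inferInstance
  rw [hP.coe_toSylow] at h3
  intro x hx
  refine mem_normalizer_of_conj_mem fun y hy => ?_
  exact h3.conj_mem ⟨y, hP.le hy⟩ hy ⟨x, hx⟩

theorem isNilpotent_of_ns {X : Subgroup H} (hX : NS X) : Group.IsNilpotent X := by
  refine ((Group.isNilpotent_of_finite_tfae (G := X)).out 3 0).1 ?_
  intro p hp P
  have h1 := hX p _ (isSylowIn_map_subtype P)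
  refine ⟨fun y hy x => ?_⟩
  have h2 := conj_mem_of_mem_normalizer (h1 x.2) (mem_map_of_mem X.subtype hy)
  obtain ⟨z, hz, e⟩ := h2
  have : z = x * y * x⁻¹ := Subtype.ext e
  exact this ▸ hz

theorem map_cj (φ : H →* K) (m : H) (F : Subgroup H) : (cj m F).map φ = cj (φ m) (F.map φ) := by
  ext k
  constructor
  · rintro ⟨x, hx, rfl⟩
    rw [mem_cj]
    exact ⟨_, mem_cj.mp hx, by simp⟩
  · intro hk
    obtain ⟨x, hx, e⟩ := mem_cj.mp hk
    refine ⟨m * x * m⁻¹, conj_mem_cj hx, ?_⟩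
    simp [e, mul_assoc]

theorem comm_of_disjoint {A B : Subgroup H} (h1 : A ≤ normalizer (B : Set H))
    (h2 : B ≤ normalizer (A : Set H)) (h : A ⊓ B = ⊥) : A ≤ centralizer (B : Set H) := by
  intro a ha
  rw [mem_centralizer_iff]
  intro b hb
  have e1 : a * b * a⁻¹ * b⁻¹ ∈ B := B.mul_mem (conj_mem_of_mem_normalizer (h1 ha) hb) (B.inv_mem hb)
  have e2 : a * b * a⁻¹ * b⁻¹ ∈ A := by
    have := A.mul_mem ha (conj_mem_of_mem_normalizer (h2 hb) (A.inv_mem ha))
    simpa [mul_assoc] using this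
  have e3 : a * b * a⁻¹ * b⁻¹ = 1 := mem_bot.mp (h ▸ mem_inf.mpr ⟨e2, e1⟩)
  calc b * a = (a * b * a⁻¹ * b⁻¹) * (b * a) := by rw [e3, one_mul]
    _ = a * b := by group

/-- `F` is a self-normalizing complement in `M` to the kernel of `φ`. -/
structure Car (φ : H →* K) (M F : Subgroup H) : Prop where
  le : F ≤ M
  cov : F.map φ = ⊤
  inj : F ⊓ φ.ker = ⊥
  sn : M ⊓ normalizer (F : Set H) ≤ F

theorem Car.mono {φ : H →* K} {M M' F : Subgroup H} (h : Car φ M F) (h1 : F ≤ M') (h2 : M' ≤ M) :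
    Car φ M' F :=
  ⟨h1, h.cov, h.inj, (inf_le_inf_right _ h2).trans h.sn⟩

theorem Car.cj {φ : H →* K} {M F : Subgroup H} (h : Car φ M F) {m : H} (hm : m ∈ M) :
    Car φ M (cj m F) := by
  refine ⟨cj_le_of_le hm h.le, by rw [map_cj, h.cov, cj_top], ?_, ?_⟩
  · rw [← cj_eq_of_normal m φ.ker, ← cj_inf, h.inj, cj_bot]
  · rw [← cj_normalizer, ← cj_eq_of_mem hm, ← cj_inf]
    exact cj_mono m h.sn

theorem Car.eq_of_eq {φ : H →* K} {M F : Subgroup H} (h : Car φ M F) {x y : H} (hx : x ∈ F)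
    (hy : y ∈ F) (e : φ x = φ y) : x = y := by
  have : x⁻¹ * y ∈ F ⊓ φ.ker := ⟨F.mul_mem (F.inv_mem hx) hy, by simp [MonoidHom.mem_ker, e]⟩
  rw [h.inj, mem_bot] at this
  exact inv_mul_eq_one.mp this

theorem Car.isNilpotent [Group.IsNilpotent K] {φ : H →* K} {M F : Subgroup H} (h : Car φ M F) :
    Group.IsNilpotent F := by
  have hi : Function.Injective (φ.comp F.subtype) := fun x y e =>
    Subtype.ext (h.eq_of_eq x.2 y.2 e)
  exact Group.nilpotent_of_mulEquiv (MonoidHom.ofInjective hi).symm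

section
variable [Group.IsNilpotent K] {u : ℕ} [Fact u.Prime] (φ : H →* K)

theorem map_le_sylow (S : Sylow u K) {Y : Subgroup H} (hY : IsPGroup u Y) : Y.map φ ≤ S :=
  (sylow_isSylowIn_top S).le_of_le_normalizer (hY.map φ) le_top
    (by rw [normalizer_eq_top]; exact le_top)

theorem map_eq_sylow (S : Sylow u K) {L P : Subgroup H} (hL : L.map φ = ⊤)
    (hP : IsSylowIn u P L) : P.map φ = S := by
  have h1 := hP.map φ
  rw [hL] at h1
  exact (h1.eq_of_le S.isPGroup' (map_le_sylow φ S hP.isPGroup) le_top).symm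

/-- Frattini argument. -/
theorem frat {L P : Subgroup H} (hL : L.map φ = ⊤) (hP : IsSylowIn u P L) :
    (L ⊓ normalizer (P : Set H)).map φ = ⊤ := by
  obtain ⟨S⟩ : Nonempty (Sylow u K) := inferInstance
  have hPS := map_eq_sylow φ S hL hP
  have h1 : IsSylowIn u P (L ⊓ (S : Subgroup K).comap φ) :=
    hP.of_le (le_inf hP.le (map_le_iff_le_comap.mp hPS.le)) inf_le_left
  have h2 : L ≤ normalizer ((L ⊓ (S : Subgroup K).comap φ : Subgroup H) : Set H) :=
    H2.le_normalizer_inf le_normalizer (by rw [normalizer_eq_top]; exact le_top)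
  rw [eq_top_iff]
  intro k _
  obtain ⟨x, hx, rfl⟩ : k ∈ L.map φ := hL ▸ mem_top k
  obtain ⟨n, hn, hnx⟩ := h1.frattini h2 hx
  obtain ⟨y, hy, e⟩ : φ n ∈ P.map φ := hPS ▸ hn.2
  refine ⟨y⁻¹ * (n * x), ⟨L.mul_mem (L.inv_mem (hP.le hy)) (L.mul_mem hn.1 hx),
    (normalizer (P : Set H)).mul_mem ((normalizer (P : Set H)).inv_mem (le_normalizer hy)) hnx⟩, ?_⟩
  simp [e]

omit [Fact u.Prime] in
/-- Minimal supplements are nilpotent. -/
theorem exists_ns {L : Subgroup H} (hL : L.map φ = ⊤) : ∃ X ≤ L, X.map φ = ⊤ ∧ NS X := by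
  induction L using WellFoundedLT.induction with
  | ind L ih =>
    by_cases h : NS L
    · exact ⟨L, le_rfl, hL, h⟩
    · simp only [NS, not_forall] at h
      obtain ⟨p, hp, P, hP, hn⟩ := h
      obtain ⟨X, hX, h1, h2⟩ := ih (L ⊓ normalizer (P : Set H))
        (lt_of_le_of_ne inf_le_left fun e => hn (e ▸ inf_le_right)) (frat φ hL hP)
      exact ⟨X, hX.trans inf_le_left, h1, h2⟩

variable {φ}

theorem Car.deg1 {M F P Y : Subgroup H} (h : Car φ M F) (hP : IsSylowIn u P F) (hYM : Y ≤ M)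
    (hY : IsPGroup u Y) (hMY : M ≤ normalizer (Y : Set H)) (S : Sylow u K)
    (hS : (S : Subgroup K) ≤ Y.map φ) :
    P ≤ Y ∧ Y ⊓ centralizer (pResidualOf u F : Set H) ≤ P := by
  have hnil := h.isNilpotent
  have hc : HasNormalPComplement u F := hasNormalPComplement_of_isNilpotent
  obtain ⟨A, hA⟩ : ∃ A, A = pResidualOf u F := ⟨_, rfl⟩
  have hAF : A ≤ F := hA ▸ pResidualOf_le F
  have hFA : F ≤ normalizer (A : Set H) := hA ▸ le_normalizer_pResidualOf F
  have hFP : F ≤ normalizer (P : Set H) := ns_of_isNilpotent hnil u P hP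
  have hPA : P ≤ centralizer (A : Set H) :=
    comm_of_disjoint (hP.le.trans hFA) (hAF.trans hFP) (hA ▸ hP.hasNormalPComplement_iff.mp hc)
  have hAP : A ⊔ P = F := hA ▸ hP.pResidualOf_sup
  have hcop : ¬ u ∣ Nat.card A := hA ▸ hasNormalPComplement_subgroup_iff_not_dvd.mp hc
  rw [← hA]
  obtain ⟨C, hC⟩ : ∃ C, C = Y ⊓ centralizer (A : Set H) := ⟨_, rfl⟩
  have hCp : IsPGroup u C := hC ▸ hY.to_inf_left
  have hPC : P ≤ normalizer (C : Set H) := hC ▸ H2.le_normalizer_inf ((hP.le.trans h.le).trans hMY)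
    (H2.le_normalizer_centralizer (hP.le.trans hFA))
  have hZ : IsPGroup u (P ⊔ C : Subgroup H) := hP.isPGroup.to_sup_of_normal_right' hCp hPC
  have hZA : P ⊔ C ≤ centralizer (A : Set H) := sup_le hPA (hC ▸ inf_le_right)
  have hZM : P ⊔ C ≤ M := sup_le (hP.le.trans h.le) (hC ▸ inf_le_left.trans hYM)
  have hCP : C ≤ P := by
    by_contra hcon
    have h1 : P < P ⊔ C := lt_of_le_of_ne le_sup_left fun e => hcon (e ▸ le_sup_right)
    have h2 := lt_inf_normalizer_of_isPGroup hZ h1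
    refine h2.not_ge (hP.le_of_le_normalizer hZ.to_inf_left ?_ inf_le_right)
    refine le_trans (le_inf (inf_le_left.trans hZM) ?_) h.sn
    rw [← hAP]
    refine le_trans (le_inf ?_ inf_le_right) (normalizer_inf_le_sup A P)
    exact inf_le_left.trans (hZA.trans (centralizer_le_normalizer _))
  rw [← hC]
  refine ⟨fun x hx => ?_, hCP⟩
  have hPS := map_eq_sylow φ S h.cov hP
  obtain ⟨y, hy, e⟩ : φ x ∈ Y.map φ := hS (hPS ▸ mem_map_of_mem φ hx)
  have hco : (Nat.card A).Coprime (Nat.card Y) := by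
    obtain ⟨k, hk⟩ := IsPGroup.iff_card.mp hY
    rw [hk]
    exact Nat.Coprime.pow_right k ((Nat.Prime.coprime_iff_not_dvd Fact.out).mpr hcop).symm
  haveI := hY.isNilpotent
  obtain ⟨c, hc, n, hn, rfl⟩ := H2.exists_centralizer_mul_commutator ((hAF.trans h.le).trans hMY)
    hco (Or.inr inferInstance) hy
  have hker : ⁅Y, A⁆ ≤ φ.ker := by
    rw [commutator_le]
    intro y hy a ha
    obtain ⟨z, hz, e⟩ : φ y ∈ P.map φ := hPS ▸ map_le_sylow φ S hY (mem_map_of_mem φ hy)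
    have h1 : a * z = z * a := mem_centralizer_iff.mp (hPA hz) a ha
    have h2 : φ a * φ y = φ y * φ a := by rw [← e, ← map_mul, h1, map_mul]
    rw [MonoidHom.mem_ker, map_commutatorElement, commutatorElement_eq_one_iff_mul_comm]
    exact h2.symm
  have hc' : c ∈ C := hC ▸ hc
  have e2 : φ c = φ x := by rw [← e, map_mul, MonoidHom.mem_ker.mp (hker hn), mul_one]
  have := h.eq_of_eq (hP.le (hCP hc')) (hP.le hx) e2
  exact this ▸ hc.1

end

section
variable [Group.IsNilpotent K] {φ : H →* K}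

theorem Car.deg {M F : Subgroup H} (h : Car φ M F)
    (hY : ∀ (u : ℕ) [Fact u.Prime] (S : Sylow u K), ∃ Y ≤ M, IsPGroup u Y ∧
      (S : Subgroup K) ≤ Y.map φ ∧ M ≤ normalizer (Y : Set H)) : M ≤ F := by
  have hnil := h.isNilpotent
  have key : ∀ (u : ℕ) [Fact u.Prime] (P : Subgroup H), IsSylowIn u P F →
      M ≤ normalizer (P : Set H) := by
    intro u _ P hP
    obtain ⟨S⟩ : Nonempty (Sylow u K) := inferInstance
    obtain ⟨Y, hYM, hYp, hS, hMY⟩ := hY u S
    obtain ⟨h1, h2⟩ := h.deg1 hP hYM hYp hMY S hS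
    have hc : HasNormalPComplement u F := hasNormalPComplement_of_isNilpotent
    have hcop := hasNormalPComplement_subgroup_iff_not_dvd.mp hc
    have h3 : pResidualOf u F ≤ centralizer (Y : Set H) := by
      refine H2.le_of_forall_prime_exists fun q hq hqd => ?_
      haveI := Fact.mk hq
      have hqu : q ≠ u := fun e => hcop (e ▸ hqd)
      obtain ⟨Q, hQ⟩ := exists_isSylowIn (p := q) (pResidualOf u F)
      refine ⟨Q, hQ.le, hQ.not_dvd, ?_⟩
      obtain ⟨R, hQR, hR⟩ := exists_isSylowIn_ge hQ.isPGroup (hQ.le.trans (pResidualOf_le F))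
      obtain ⟨T⟩ : Nonempty (Sylow q K) := inferInstance
      obtain ⟨Y', hYM', hYp', hS', hMY'⟩ := hY q T
      have h4 := (h.deg1 hR hYM' hYp' hMY' T hS').1
      refine (hQR.trans h4).trans (comm_of_disjoint (hYM'.trans hMY) (hYM.trans hMY') ?_)
      exact (IsPGroup.disjoint_of_ne q u hqu _ _ hYp' hYp).eq_bot
    have h5 : Y = P := le_antisymm
      (le_trans (le_inf le_rfl (le_centralizer_iff.mp h3)) h2) h1
    exact h5 ▸ hMY
  intro m hm
  refine h.sn ⟨hm, ?_⟩
  refine mem_normalizer_of_cj_le (cj_le_iff_le_cj_inv.mpr ?_)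
  refine H2.le_of_forall_prime_exists fun q hq _ => ?_
  haveI := Fact.mk hq
  obtain ⟨Q, hQ⟩ := exists_isSylowIn (p := q) F
  refine ⟨Q, hQ.le, hQ.not_dvd, cj_le_iff_le_cj_inv.mp ?_⟩
  rw [cj_eq_iff_mem_normalizer.mpr (key q Q hQ hm)]
  exact hQ.le

/-- Main theorem: every nilpotent supplement is conjugate to `F`. -/
theorem Car.conj {M F X : Subgroup H} (h : Car φ M F) (hXM : X ≤ M) (hX : X.map φ = ⊤)
    (hns : NS X) : ∃ m ∈ M, H1.cj m F = X := by
  induction M using WellFoundedLT.induction generalizing F X with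
  | ind M ih =>
  by_cases hdeg : ∀ (u : ℕ) [Fact u.Prime] (S : Sylow u K), ∃ Y ≤ M, IsPGroup u Y ∧
      (S : Subgroup K) ≤ Y.map φ ∧ M ≤ normalizer (Y : Set H)
  · have hMF := h.deg hdeg
    refine ⟨1, M.one_mem, ?_⟩
    rw [cj_one]
    refine le_antisymm (fun x hx => ?_) (hXM.trans hMF)
    obtain ⟨y, hy, e⟩ : φ x ∈ X.map φ := hX ▸ mem_top _
    exact h.eq_of_eq (hMF (hXM hy)) hx e ▸ hy
  simp only [not_forall, not_exists, not_and] at hdeg
  obtain ⟨u, hu, S, hgood⟩ := hdeg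
  have hlt : ∀ Y ≤ M, IsPGroup u Y → (S : Subgroup K) ≤ Y.map φ →
      M ⊓ normalizer (Y : Set H) < M := fun Y h1 h2 h3 =>
    lt_of_le_of_ne inf_le_left fun e => hgood Y h1 h2 h3 (e ▸ inf_le_right)
  -- if a conjugate of `F` normalizes `Y`, every nilpotent supplement normalizing `Y` is conjugate
  have step : ∀ Y ≤ M, IsPGroup u Y → (S : Subgroup K) ≤ Y.map φ → ∀ m ∈ M,
      H1.cj m F ≤ normalizer (Y : Set H) → ∀ X ≤ M ⊓ normalizer (Y : Set H), X.map φ = ⊤ → NS X →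
      ∃ m' ∈ M, H1.cj m' F = X := by
    intro Y h1 h2 h3 m hm h4 X h5 h6 h7
    have hc := h.cj hm
    obtain ⟨l, hl, e⟩ := ih _ (hlt Y h1 h2 h3) (hc.mono (le_inf hc.le h4) inf_le_left) h5 h6 h7
    exact ⟨l * m, M.mul_mem hl.1 hm, by rw [cj_mul, e]⟩
  -- an `F`-invariant Sylow subgroup
  have base : ∀ Y ≤ M, IsPGroup u Y → (S : Subgroup K) ≤ Y.map φ → F ≤ normalizer (Y : Set H) →
      ∃ P, IsSylowIn u P M ∧ F ≤ normalizer (P : Set H) := by
    intro Y
    induction Y using WellFoundedGT.induction with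
    | ind Y ihY =>
    intro h1 h2 h3 h4
    have hFL : F ≤ M ⊓ normalizer (Y : Set H) := le_inf h.le h4
    have hL : (M ⊓ normalizer (Y : Set H)).map φ = ⊤ := top_le_iff.mp (h.cov ▸ map_mono hFL)
    obtain ⟨P, hP⟩ := exists_isSylowIn (p := u) (M ⊓ normalizer (Y : Set H))
    obtain ⟨X, hX1, hX2, hX3⟩ := exists_ns φ (frat φ hL hP)
    obtain ⟨l, hl, e⟩ := ih _ (hlt Y h1 h2 h3) (h.mono hFL inf_le_left) (hX1.trans inf_le_left)
      hX2 hX3
    have hP' := hP.cj_of_mem (inv_mem hl)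
    have hFP : F ≤ normalizer ((H1.cj l⁻¹ P : Subgroup H) : Set H) := by
      rw [← cj_normalizer, ← cj_le_iff_le_cj_inv, e]
      exact hX1.trans inf_le_right
    have hYP : Y ≤ H1.cj l⁻¹ P := hP'.le_of_normal h2 (le_inf h1 le_normalizer) inf_le_right
    rcases hYP.lt_or_eq with hlt' | heq
    · exact ihY _ hlt' (hP'.le.trans inf_le_left) hP'.isPGroup (h3.trans (map_mono hYP)) hFP
    · refine ⟨Y, isSylowIn_of_maximal h2 h1 fun Q hQ hYQ hQM => ?_, h4⟩
      by_contra hne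
      have h5 := lt_inf_normalizer_of_isPGroup hQ (lt_of_le_of_ne hYQ (Ne.symm hne))
      rw [← heq] at hP'
      exact h5.ne' (hP'.eq_of_le hQ.to_inf_left h5.le (inf_le_inf_right _ hQM))
  obtain ⟨P0, hP0⟩ := exists_isSylowIn (p := u) F
  obtain ⟨P1, hP1, hFP1⟩ := base P0 (hP0.le.trans h.le) hP0.isPGroup
    (map_eq_sylow φ S h.cov hP0).ge (ns_of_isNilpotent h.isNilpotent u P0 hP0)
  have down : ∀ Y ≤ M, IsPGroup u Y → (S : Subgroup K) ≤ Y.map φ →
      (M ⊓ normalizer (Y : Set H)).map φ = ⊤ → ∃ m ∈ M, H1.cj m F ≤ normalizer (Y : Set H) := by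
    intro Y
    induction Y using WellFoundedGT.induction with
    | ind Y ihY =>
    intro h1 h2 h3 h4
    obtain ⟨P, hYP, hP⟩ := exists_isSylowIn_ge h2 (le_inf h1 le_normalizer :
      Y ≤ M ⊓ normalizer (Y : Set H))
    rcases hYP.lt_or_eq with hlt' | heq
    · have h5 := frat φ h4 hP
      have hPM : P ≤ M := hP.le.trans inf_le_left
      have hSP : (S : Subgroup K) ≤ P.map φ := h3.trans (map_mono hYP)
      obtain ⟨m, hm, h6⟩ := ihY P hlt' hPM hP.isPGroup hSP
        (top_le_iff.mp (h5 ▸ map_mono (inf_le_inf_right _ inf_le_left)))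
      obtain ⟨X, hX1, hX2, hX3⟩ := exists_ns φ h5
      obtain ⟨m', hm', e⟩ := step P hPM hP.isPGroup hSP m hm h6 X
        (hX1.trans (inf_le_inf_right _ inf_le_left)) hX2 hX3
      exact ⟨m', hm', e ▸ hX1.trans (inf_le_left.trans inf_le_right)⟩
    · have hYS : IsSylowIn u Y M := by
        refine isSylowIn_of_maximal h2 h1 fun Q hQ hYQ hQM => ?_
        by_contra hne
        have h5 := lt_inf_normalizer_of_isPGroup hQ (lt_of_le_of_ne hYQ (Ne.symm hne))
        rw [← heq] at hP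
        exact h5.ne' (hP.eq_of_le hQ.to_inf_left h5.le (inf_le_inf_right _ hQM))
      obtain ⟨m, hm, e⟩ := hYS.exists_cj_eq hP1
      exact ⟨m, hm, by rw [← e, ← cj_normalizer]; exact cj_mono m hFP1⟩
  obtain ⟨Y, hY⟩ := exists_isSylowIn (p := u) X
  have hXY : X ≤ M ⊓ normalizer (Y : Set H) := le_inf hXM (hns u Y hY)
  have hSY := (map_eq_sylow φ S hX hY).ge
  obtain ⟨m, hm, h6⟩ := down Y (hY.le.trans hXM) hY.isPGroup hSY
    (top_le_iff.mp (hX ▸ map_mono hXY))
  exact step Y (hY.le.trans hXM) hY.isPGroup hSY m hm h6 X hXY hX hns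

end

end Cfsg.Agent.NF
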