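/-
Nilpotent fixed-point-free groups of automorphisms (no coprimality, no solvability).
-/
import Cfsg.Agent.NF.Car
import Mathlib.GroupTheory.SemidirectProduct

set_option autoImplicit false
set_option linter.unusedSectionVars false

namespace Cfsg.Agent.NF

open Subgroup H1

variable {G F : Type*} [Group G] [Finite G] [Group F] [Finite F] [MulDistribMulAction F G]

/-- `L` is invariant under the acting group. -/
def Inv (F : Type*) [Group F] [MulDistribMulAction F G] (L : Subgroup G) : Prop :=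
  ∀ (f : F) (x : G), x ∈ L → f • x ∈ L

/-- The semidirect product. -/
abbrev SD (G F : Type*) [Group G] [Group F] [MulDistribMulAction F G] :=
  G ⋊[MulDistribMulAction.toMulAut F G] F

instance instFiniteSD : Finite (SD G F) :=
  Finite.of_equiv _ (SemidirectProduct.equivProd (N := G) (G := F)
    (φ := MulDistribMulAction.toMulAut F G)).symm

/-- `L ⋊ F` inside `G ⋊ F`. -/
def ext (L : Subgroup G) (hL : Inv F L) : Subgroup (SD G F) where
  carrier := {x | x.left ∈ L}
  one_mem' := L.one_mem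
  mul_mem' := fun {a b} ha hb => L.mul_mem ha (hL _ _ hb)
  inv_mem' := fun {a} ha => hL _ _ (L.inv_mem ha)

theorem mem_ext {L : Subgroup G} {hL : Inv F L} {x : SD G F} : x ∈ ext L hL ↔ x.left ∈ L := Iff.rfl

theorem inv_bot : Inv F (⊥ : Subgroup G) := fun f x hx => by
  rw [mem_bot.mp hx, smul_one]; exact one_mem _

theorem inv_top : Inv F (⊤ : Subgroup G) := fun _ _ _ => mem_top _

theorem car_ext (hCF : ∀ g : G, (∀ f : F, f • g = g) → g = 1) (L : Subgroup G) (hL : Inv F L) :
    Car (SemidirectProduct.rightHom : SD G F →* F) (ext L hL) (ext ⊥ inv_bot) := by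
  refine ⟨fun x hx => ?_, ?_, ?_, ?_⟩
  · rw [mem_ext, mem_bot.mp (mem_ext.mp hx)]; exact L.one_mem
  · rw [eq_top_iff]
    intro f _
    exact ⟨SemidirectProduct.inr f, mem_bot.mpr rfl, rfl⟩
  · rw [eq_bot_iff]
    rintro x ⟨h1, h2⟩
    exact mem_bot.mpr (SemidirectProduct.ext (mem_bot.mp (mem_ext.mp h1)) h2)
  · rintro x ⟨-, h2⟩
    refine mem_bot.mpr (hCF _ fun f => ?_)
    have h3 : (SemidirectProduct.inr (x.right⁻¹ * f * x.right) : SD G F) ∈ ext ⊥ inv_bot :=
      mem_bot.mpr rfl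
    have h4 := mem_bot.mp (mem_ext.mp (conj_mem_of_mem_normalizer h2 h3))
    simp [smul_smul, mul_assoc] at h4
    exact (mul_inv_eq_one.mp h4).symm

variable [Group.IsNilpotent F] (hCF : ∀ g : G, (∀ f : F, f • g = g) → g = 1)
include hCF

/-- Fixed-point-freeness on cosets of any invariant subgroup. -/
theorem mem_of_fixed_coset {N : Subgroup G} (hN : Inv F N) {g : G}
    (hg : ∀ f : F, g⁻¹ * f • g ∈ N) : g ∈ N := by
  have hc := car_ext hCF N hN
  have ht := (car_ext hCF ⊤ inv_top).cj (m := (SemidirectProduct.inl g⁻¹ : SD G F)) (mem_top _)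
  obtain ⟨m, hm, e⟩ := hc.conj (X := cj (SemidirectProduct.inl g⁻¹) (ext ⊥ inv_bot)) (by
      rw [cj_le_iff]
      intro x hx
      have h1 := mem_bot.mp (mem_ext.mp hx)
      rw [mem_ext]
      simpa [h1] using hg x.right) ht.cov (ns_of_isNilpotent ht.isNilpotent)
  have h2 : (SemidirectProduct.inl g : SD G F) * m ∈ ext ⊥ inv_bot := by
    refine (car_ext hCF ⊤ inv_top).sn ⟨mem_top _, ?_⟩
    refine cj_eq_iff_mem_normalizer.mp ?_
    rw [cj_mul, e, map_inv, cj_cj_inv]
  have h3 := mem_bot.mp (mem_ext.mp h2)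
  simp at h3
  rw [eq_inv_of_mul_eq_one_left h3]
  exact N.inv_mem hm

omit hCF [Group.IsNilpotent F] in
theorem Inv.smul_mem_iff {L : Subgroup G} (hL : Inv F L) (f : F) (x : G) : f • x ∈ L ↔ x ∈ L :=
  ⟨fun h => by simpa using hL f⁻¹ _ h, hL f x⟩

omit hCF [Group.IsNilpotent F] in
theorem Inv.inf {L M : Subgroup G} (hL : Inv F L) (hM : Inv F M) : Inv F (L ⊓ M) :=
  fun f x hx => ⟨hL f x hx.1, hM f x hx.2⟩

omit hCF [Group.IsNilpotent F] in
theorem Inv.normalizer {L : Subgroup G} (hL : Inv F L) : Inv F (normalizer (L : Set G)) := by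
  intro f x hx
  refine mem_normalizer_of_conj_mem fun y hy => ?_
  have := hL f _ (conj_mem_of_mem_normalizer hx (hL f⁻¹ y hy))
  simpa using this

omit hCF [Group.IsNilpotent F] in
theorem Inv.centralizer {L : Subgroup G} (hL : Inv F L) : Inv F (centralizer (L : Set G)) := by
  intro f x hx
  rw [mem_centralizer_iff] at hx ⊢
  intro y hy
  have := congrArg (f • ·) (hx _ (hL f⁻¹ y hy))
  simpa using this

omit hCF [Group.IsNilpotent F] in
theorem Inv.map_eq {L : Subgroup G} (hL : Inv F L) (f : F) :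
    L.map (MulDistribMulAction.toMonoidHom G f) = L := by
  ext x
  constructor
  · rintro ⟨y, hy, rfl⟩; exact hL f y hy
  · intro hx; exact ⟨f⁻¹ • x, hL _ _ hx, by simp⟩

variable {p : ℕ} [Fact p.Prime]

/-- Existence of an invariant Sylow subgroup, for every prime. -/
theorem exists_inv_sylow {L : Subgroup G} (hL : Inv F L) : ∃ P, IsSylowIn p P L ∧ Inv F P := by
  obtain ⟨P, hP⟩ := exists_isSylowIn (p := p) L
  have hc := car_ext hCF L hL
  obtain ⟨P', hP'⟩ : ∃ P' : Subgroup (SD G F), P' = P.map SemidirectProduct.inl := ⟨_, rfl⟩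
  have hmem : ∀ x : G, (SemidirectProduct.inl x : SD G F) ∈ P' ↔ x ∈ P := fun x => by
    rw [hP']; exact mem_map_iff_mem SemidirectProduct.inl_injective
  have hcov : (ext L hL ⊓ normalizer (P' : Set (SD G F))).map
      (SemidirectProduct.rightHom : SD G F →* F) = ⊤ := by
    rw [eq_top_iff]
    intro f _
    have h1 := hP.map (MulDistribMulAction.toMonoidHom G f)
    rw [hL.map_eq] at h1
    obtain ⟨l, hl, e⟩ := hP.exists_cj_eq h1
    refine ⟨SemidirectProduct.inl l * SemidirectProduct.inr f, ⟨?_, ?_⟩, by simp⟩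
    · show _ ∈ ext L hL
      rw [mem_ext]; simpa using hl
    · refine mem_normalizer_of_conj_mem fun y hy => ?_
      rw [hP'] at hy
      obtain ⟨z, hz, rfl⟩ := hy
      have h2 : l * (f • z) * l⁻¹ ∈ P := e ▸ conj_mem_cj ⟨z, hz, rfl⟩
      have h3 := (hmem _).mpr h2
      convert h3 using 1
      ext <;> simp [smul_smul]
  obtain ⟨X, hX1, hX2, hX3⟩ := exists_ns _ hcov
  obtain ⟨m, hm, e⟩ := hc.conj (hX1.trans inf_le_left) hX2 hX3
  refine ⟨cj m.left⁻¹ P, hP.cj_of_mem (L.inv_mem hm), fun f x hx => ?_⟩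
  rw [mem_cj, inv_inv] at hx ⊢
  have h3 : (SemidirectProduct.inr (m.right⁻¹ * f * m.right) : SD G F) ∈ ext ⊥ inv_bot :=
    mem_bot.mpr rfl
  have h4 := (hX1 (e ▸ conj_mem_cj (g := m) h3)).2
  have h5 := conj_mem_of_mem_normalizer h4 ((hmem _).mpr hx)
  rw [← hmem]
  convert h5 using 1
  ext <;> simp [smul_smul, mul_assoc]

/-- Uniqueness of the invariant Sylow subgroup. -/
theorem inv_sylow_unique {L P Q : Subgroup G} (hL : Inv F L) (hP : IsSylowIn p P L)
    (hQ : IsSylowIn p Q L) (hPi : Inv F P) (hQi : Inv F Q) : P = Q := by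
  obtain ⟨l, hl, e⟩ := hQ.exists_cj_eq hP
  have h1 : l ∈ normalizer (P : Set G) := by
    refine mem_of_fixed_coset hCF hPi.normalizer fun f => ?_
    refine mem_normalizer_of_conj_mem fun y hy => ?_
    have h2 : l * (f⁻¹ • y) * l⁻¹ ∈ Q := e ▸ conj_mem_cj (hPi _ _ hy)
    have h3 := hQi f _ h2
    rw [← e, mem_cj] at h3
    simpa [mul_assoc] using h3
  rw [← e, cj_eq_iff_mem_normalizer.mpr h1]

/-- Every invariant `p`-subgroup lies in the invariant Sylow subgroup. -/
theorem le_inv_sylow {L P Q : Subgroup G} (hL : Inv F L) (hP : IsSylowIn p P L) (hPi : Inv F P)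
    (hQ : IsPGroup p Q) (hQL : Q ≤ L) (hQi : Inv F Q) : Q ≤ P := by
  induction Q using WellFoundedGT.induction with
  | ind Q ih =>
  obtain ⟨R, hR, hRi⟩ := exists_inv_sylow (p := p) hCF (hL.inf hQi.normalizer)
  have hQR : Q ≤ R := hR.le_of_normal hQ (le_inf hQL le_normalizer) inf_le_right
  rcases hQR.lt_or_eq with hlt | heq
  · exact hQR.trans (ih R hlt hR.isPGroup (hR.le.trans inf_le_left) hRi)
  · have hS : IsSylowIn p Q L := by
      refine isSylowIn_of_maximal hQ hQL fun T hT hQT hTL => ?_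
      by_contra hne
      have h5 := lt_inf_normalizer_of_isPGroup hT (lt_of_le_of_ne hQT (Ne.symm hne))
      rw [← heq] at hR
      exact h5.ne' (hR.eq_of_le hT.to_inf_left h5.le (inf_le_inf_right _ hTL))
    exact (inv_sylow_unique hCF hL hS hP hQi hPi).le

end Cfsg.Agent.NF
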